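import Cfsg.Agent.Lib.HSUnitary.Perms
import Cfsg.Agent.Lib.UThreeFive.Alt
import Cfsg.Agent.Lib.UThreeFive.Bound

/-! The same group is the unitary group in dimension three over 25 elements. -/

set_option autoImplicit false
set_option maxRecDepth 100000

namespace Cfsg.Agent.Lib.HSUnitary

open Matrix Cfsg.Agent.Lib.UThreeFive

/-- An element of the field of 25 from its code. -/
def dec25 (n : ℕ) : R25 := ⟨(n % 5 : ℕ), (n / 5 : ℕ)⟩

/-- A matrix from a list. -/
def matOf (l : List ℕ) : M25 := Matrix.of fun i j => dec25 (l.getD (3 * i.val + j.val) 0)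

/-- The isotropic points. -/
def pnt (i : Fin 126) : Fin 3 → R25 := fun k => dec25 (Data.isoPts.getD (3 * i.val + k.val) 0)

theorem mats_ok : ((matOf Data.matA).det = 1 ∧ matOf Data.matA * ((matOf Data.matA).map fun x => x ^ 5)ᵀ = 1) ∧
    ((matOf Data.matB).det = 1 ∧ matOf Data.matB * ((matOf Data.matB).map fun x => x ^ 5)ᵀ = 1) := by decide +kernel

theorem mats_move :
    (∀ i k, (∑ j, matOf Data.matA k j * pnt i j) = dec25 (Data.scalA.getD i.val 0) * pnt (fn Data.permA i) k) ∧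
    (∀ i k, (∑ j, matOf Data.matB k j * pnt i j) = dec25 (Data.scalB.getD i.val 0) * pnt (fn Data.permB i) k) := by
  decide +kernel

theorem pnt_indep : ∀ i j : Fin 126, i ≠ j →
    pnt i 0 * pnt j 1 ≠ pnt i 1 * pnt j 0 ∨ pnt i 0 * pnt j 2 ≠ pnt i 2 * pnt j 0 ∨
      pnt i 1 * pnt j 2 ≠ pnt i 2 * pnt j 1 := by decide +kernel

variable {F : Type*} [Field F] [Fintype F]

theorem form_preserved [CharP F 5] (φ : R25 →+* F) (M : M25) (hM0 : M * (M.map fun x => x ^ 5)ᵀ = 1)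
    (u v : Fin 3 → F) :
    Cfsg.hermForm 3 F 5 ((φ.mapMatrix M) *ᵥ u) ((φ.mapMatrix M) *ᵥ v) = Cfsg.hermForm 3 F 5 u v := by
  haveI : Fact (Nat.Prime 5) := ⟨by norm_num⟩
  haveI : ExpChar F 5 := ExpChar.prime (by norm_num)
  have hM : (φ.mapMatrix M) * ((φ.mapMatrix M).map fun x => x ^ 5)ᵀ = 1 := by
    have := congrArg φ.mapMatrix hM0
    rw [map_mul, map_one] at this
    rw [← this]
    congr 1
    ext a b
    simp
  have hM' := mul_eq_one_comm.1 hM
  have hexp : ∀ a b, ∑ k, φ.mapMatrix M k a * (φ.mapMatrix M k b) ^ 5 = if a = b then 1 else 0 := by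
    intro a b
    have := congrFun (congrFun hM' b) a
    rw [Matrix.mul_apply, Matrix.one_apply] at this
    simp only [Matrix.transpose_apply, Matrix.map_apply] at this
    simp only [eq_comm (a := a), ← this]
    exact Finset.sum_congr rfl fun k _ => mul_comm _ _
  simp only [Cfsg.hermForm, Matrix.mulVec, dotProduct, Fin.sum_univ_three, add_pow_expChar, mul_pow]
  have e00 := hexp 0 0
  have e01 := hexp 0 1
  have e02 := hexp 0 2
  have e10 := hexp 1 0
  have e11 := hexp 1 1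
  have e12 := hexp 1 2
  have e20 := hexp 2 0
  have e21 := hexp 2 1
  have e22 := hexp 2 2
  simp [Fin.sum_univ_three] at e00 e01 e02 e10 e11 e12 e20 e21 e22
  simp only [RingHom.mapMatrix_apply, Matrix.map_apply]
  linear_combination (u 0 * v 0 ^ 5) * e00 + (u 0 * v 1 ^ 5) * e01 + (u 0 * v 2 ^ 5) * e02 +
    (u 1 * v 0 ^ 5) * e10 + (u 1 * v 1 ^ 5) * e11 + (u 1 * v 2 ^ 5) * e12 +
    (u 2 * v 0 ^ 5) * e20 + (u 2 * v 1 ^ 5) * e21 + (u 2 * v 2 ^ 5) * e22

/-- The matrix of an element of the special unitary group. -/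
def matHom : Cfsg.SU 3 F 5 →* Matrix (Fin 3) (Fin 3) F where
  toFun s := ((s : Matrix.SpecialLinearGroup (Fin 3) F) : Matrix (Fin 3) (Fin 3) F)
  map_one' := rfl
  map_mul' _ _ := rfl

/-- A permutation follows an element of the projective group. -/
def Follows25 (φ : R25 →+* F) (p : Equiv.Perm (Fin 126)) (x : Cfsg.PSU 3 F 5) : Prop :=
  ∃ s : Cfsg.SU 3 F 5, QuotientGroup.mk' (Subgroup.center (Cfsg.SU 3 F 5)) s = x ∧
    ∀ i, ∃ c : F, matHom s *ᵥ (φ ∘ pnt i) = c • (φ ∘ pnt (p i))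

theorem unitary_equiv (hF : Fintype.card F = 25) : Nonempty (Cfsg.PSU 3 F 5 ≃* ↥grp) := by
  classical
  haveI : CharP F 5 := by
    obtain ⟨p, hp⟩ := CharP.exists F
    haveI := hp
    obtain ⟨n, hpp, hn⟩ := FiniteField.card F p
    rw [hF] at hn
    have h5 : (5 : ℕ) ∣ p ^ (n : ℕ) := hn ▸ (by norm_num)
    obtain rfl : p = 5 := ((Nat.prime_dvd_prime_iff_eq (by norm_num) hpp).1
      ((by norm_num : Nat.Prime 5).dvd_of_dvd_pow h5)).symm
    exact hp
  have hF2 : Fintype.card F = 5 ^ 2 := by rw [hF]; norm_num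
  obtain ⟨φ, hφ⟩ := exists_hom F hF
  let el : ∀ M : M25, M.det = 1 ∧ M * (M.map fun x => x ^ 5)ᵀ = 1 → Cfsg.SU 3 F 5 := fun M h =>
    ⟨⟨φ.mapMatrix M, by rw [← RingHom.map_det, h.1, map_one]⟩, form_preserved φ M h.2⟩
  have hel : ∀ (M : M25) h (i j : Fin 126) (c : R25), (∀ k, (∑ l, M k l * pnt i l) = c * pnt j k) →
      matHom (el M h) *ᵥ (φ ∘ pnt i) = φ c • (φ ∘ pnt j) := by
    intro M h i j c hc
    funext k
    show (φ.mapMatrix M *ᵥ (φ ∘ pnt i)) k = _
    simp only [RingHom.mapMatrix_apply, Matrix.mulVec, dotProduct, Matrix.map_apply, Function.comp_apply,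
      Pi.smul_apply, smul_eq_mul, ← map_mul, ← map_sum, hc k]
  have hcard : Nat.card (Cfsg.PSU 3 F 5) = 126000 := Cfsg.Agent.Lib.UThreeFive.card_eq hF2
  refine iso_of_graph (Follows25 φ) ⟨1, map_one _, fun i => ⟨1, by simp⟩⟩ ?_ ?_ pA pB _ _
    ⟨el _ mats_ok.1, rfl, fun i => ⟨_, hel _ mats_ok.1 i _ _ fun k => mats_move.1 i k⟩⟩
    ⟨el _ mats_ok.2, rfl, fun i => ⟨_, hel _ mats_ok.2 i _ _ fun k => mats_move.2 i k⟩⟩
    (by norm_num) hcard card_grp_ge
  · rintro p g q h ⟨s, rfl, hs⟩ ⟨t, rfl, ht⟩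
    refine ⟨s * t, map_mul _ _ _, fun i => ?_⟩
    obtain ⟨c, hc⟩ := ht i
    obtain ⟨d, hd⟩ := hs (q i)
    exact ⟨c * d, by rw [map_mul, ← Matrix.mulVec_mulVec, hc, Matrix.mulVec_smul, hd, smul_smul,
      Equiv.Perm.mul_apply]⟩
  · rintro p ⟨s, hs, hmove⟩
    obtain ⟨ζ, hζ⟩ := (Cfsg.Agent.S2366.mem_center_iff hF2 s).1 ((QuotientGroup.eq_one_iff _).1 hs)
    have hζ0 : ζ ≠ 0 := by
      intro h0
      have hd : (matHom s).det = 1 := (s : Matrix.SpecialLinearGroup (Fin 3) F).2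
      rw [show matHom s = ζ • (1 : Matrix (Fin 3) (Fin 3) F) from hζ, h0, zero_smul, Matrix.det_zero] at hd
      exact zero_ne_one hd
    refine Equiv.ext fun i => ?_
    by_contra hne
    obtain ⟨c, hc⟩ := hmove i
    rw [show matHom s = ζ • (1 : Matrix (Fin 3) (Fin 3) F) from hζ, Matrix.smul_mulVec, Matrix.one_mulVec] at hc
    have hcr : ∀ k l, pnt i k * pnt (p i) l = pnt i l * pnt (p i) k := by
      intro k l
      apply hφ
      apply mul_left_cancel₀ hζ0
      have hk := congrFun hc k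
      have hl := congrFun hc l
      simp only [Pi.smul_apply, Function.comp_apply, smul_eq_mul] at hk hl
      rw [map_mul, map_mul, ← mul_assoc, ← mul_assoc, hk, hl]
      ring
    rcases pnt_indep i (p i) (fun e => hne e.symm) with h | h | h <;> exact h (hcr _ _)

end Cfsg.Agent.Lib.HSUnitary
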